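import Cfsg.Agent.H245.AN.Small
import Cfsg.Agent.H89.AN.AOneTwo

/-!
# S4766, piece B10 (helper245)
-/

set_option autoImplicit false

namespace Cfsg.Agent.H245.AN

open Cfsg Cfsg.Agent.H691.AN Cfsg.Agent.H704

universe u

/-- **B10**: a finite group with the character degrees of `A_n`, `5 ≤ n < 20`, has a perfect derived subgroup. -/
theorem b10_small {n : ℕ} (h5 : 5 ≤ n) (hn : n < 20) {G : Type u} [Group G] [Finite G]
    (h : charDegrees G = D n) : ⁅commutator G, commutator G⁆ = commutator G :=
  small h5 hn (fun _ hl _ hd => Cfsg.Agent.H89.AN.a1_mem (by omega) hl hd)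
    (fun _ hd => Cfsg.Agent.H89.AN.a2_part (by omega) hd) h

end Cfsg.Agent.H245.AN
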